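import Mathlib
import Cfsg.Agent.H382.FieldAction

/-!
# Groups of semilinear maps of a finite field (helper500, TEAM GEN piece B)

`struct`: a group `H` of semilinear permutations `v ↦ c σ(v)` of a finite field is generated by two elements `a`, `b`, where
`a` is a homothety generating the group of all homotheties contained in `H`.
-/

set_option autoImplicit false

namespace Cfsg.Agent.H500.Gen

open Subgroup

variable {V F : Type*} [AddCommGroup V] [Field F]

/-- `h` is semilinear with respect to `e` and the field automorphism `σ` -/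
def Semi (e : V ≃+ F) (h : Equiv.Perm V) (σ : F ≃+* F) : Prop := ∃ c : F, ∀ v : V, e (h v) = c * σ (e v)

theorem Semi.ne_zero {e : V ≃+ F} {h : Equiv.Perm V} {σ : F ≃+* F} {c : F} (hc : ∀ v : V, e (h v) = c * σ (e v)) :
    c ≠ 0 := by
  rintro rfl
  have h1 : ∀ v, h v = 0 := fun v => e.injective (by rw [hc, zero_mul, map_zero])
  have h2 : e.symm 1 = 0 := h.injective (by rw [h1, h1])
  have h3 : (1 : F) = 0 := by rw [← e.apply_symm_apply 1, h2, map_zero]
  exact one_ne_zero h3

theorem Semi.unique {e : V ≃+ F} {h : Equiv.Perm V} {σ τ : F ≃+* F} (h1 : Semi e h σ) (h2 : Semi e h τ) : σ = τ := by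
  obtain ⟨c, hc⟩ := h1
  obtain ⟨d, hd⟩ := h2
  have hcd : c = d := by
    have h3 := hc (e.symm 1)
    rw [hd (e.symm 1), e.apply_symm_apply, map_one, map_one, mul_one, mul_one] at h3
    exact h3.symm
  subst hcd
  ext x
  have h3 := hc (e.symm x)
  rw [hd (e.symm x), e.apply_symm_apply] at h3
  exact (mul_left_cancel₀ (Semi.ne_zero hc) h3).symm

theorem Semi.mul {e : V ≃+ F} {h k : Equiv.Perm V} {σ τ : F ≃+* F} (h1 : Semi e h σ) (h2 : Semi e k τ) :
    Semi e (h * k) (σ * τ) := by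
  obtain ⟨c, hc⟩ := h1
  obtain ⟨d, hd⟩ := h2
  refine ⟨c * σ d, fun v => ?_⟩
  rw [Equiv.Perm.mul_apply, hc, hd, map_mul, mul_assoc]
  rfl

theorem Semi.one (e : V ≃+ F) : Semi e (1 : Equiv.Perm V) (1 : F ≃+* F) := ⟨1, fun v => by simp⟩

/-- the field automorphism of a semilinear map, as a homomorphism -/
noncomputable def tau (e : V ≃+ F) (H : Subgroup (Equiv.Perm V))
    (hH : ∀ h ∈ H, ∃ σ : F ≃+* F, Semi e h σ) : ↥H →* (F ≃+* F) where
  toFun h := (hH h h.2).choose
  map_one' := Semi.unique (hH 1 (one_mem H)).choose_spec (Semi.one e)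
  map_mul' h k := Semi.unique (hH _ (h * k).2).choose_spec
    (Semi.mul (hH h h.2).choose_spec (hH k k.2).choose_spec)

theorem tau_spec (e : V ≃+ F) (H : Subgroup (Equiv.Perm V)) (hH : ∀ h ∈ H, ∃ σ : F ≃+* F, Semi e h σ) (h : ↥H) :
    Semi e (h : Equiv.Perm V) (tau e H hH h) := (hH h h.2).choose_spec

/-- a homothety multiplies by its value at `1` -/
theorem ker_apply {e : V ≃+ F} {H : Subgroup (Equiv.Perm V)} {hH : ∀ h ∈ H, ∃ σ : F ≃+* F, Semi e h σ}
    (g : ↥(tau e H hH).ker) (v : V) :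
    e (((g : ↥H) : Equiv.Perm V) v) = e (((g : ↥H) : Equiv.Perm V) (e.symm 1)) * e v := by
  obtain ⟨c, hc⟩ := tau_spec e H hH g
  have h2 : tau e H hH (g : ↥H) = 1 := g.2
  rw [h2] at hc
  rw [hc, hc (e.symm 1), e.apply_symm_apply]
  simp

/-- the multiplier of a homothety -/
noncomputable def mulr (e : V ≃+ F) (H : Subgroup (Equiv.Perm V)) (hH : ∀ h ∈ H, ∃ σ : F ≃+* F, Semi e h σ) :
    ↥(tau e H hH).ker →* F where
  toFun h := e (((h : ↥H) : Equiv.Perm V) (e.symm 1))
  map_one' := by simp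
  map_mul' h k := by
    change e (((h : ↥H) : Equiv.Perm V) (((k : ↥H) : Equiv.Perm V) (e.symm 1))) = _
    rw [ker_apply h]

theorem mulr_injective (e : V ≃+ F) (H : Subgroup (Equiv.Perm V)) (hH : ∀ h ∈ H, ∃ σ : F ≃+* F, Semi e h σ) :
    Function.Injective (mulr e H hH) := by
  intro h k hhk
  apply Subtype.ext
  apply Subtype.ext
  ext v
  apply e.injective
  rw [ker_apply h, ker_apply k]
  change mulr e H hH h * e v = mulr e H hH k * e v
  rw [hhk]

/-- **Structure**: a group of semilinear permutations is generated by a homothety `a` generating the homotheties and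
one more element. -/
theorem struct [Finite F] (e : V ≃+ F) (H : Subgroup (Equiv.Perm V))
    (hH : ∀ h ∈ H, ∃ (c : F) (σ : F ≃+* F), ∀ v : V, e (h v) = c * σ (e v)) :
    ∃ a ∈ H, ∃ b ∈ H, closure ({a, b} : Set (Equiv.Perm V)) = H ∧ (∃ c : F, ∀ v, e (a v) = c * e v) ∧
      ∀ h ∈ H, (∃ c : F, ∀ v, e (h v) = c * e v) → h ∈ zpowers a := by
  have hH' : ∀ h ∈ H, ∃ σ : F ≃+* F, Semi e h σ := by
    intro h hh
    obtain ⟨c, σ, h1⟩ := hH h hh
    exact ⟨σ, c, h1⟩
  have hV : Finite V := Finite.of_equiv F e.toEquiv.symm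
  have hfin : Finite ↥H := inferInstance
  have hk : IsCyclic ↥(tau e H hH').ker := isCyclic_of_injective_ringHom (mulr e H hH') (mulr_injective e H hH')
  have hcyc : IsCyclic (F ≃+* F) := by
    have : Fintype F := Fintype.ofFinite F
    obtain ⟨n, hn, hn'⟩ := FiniteField.card F (ringChar F)
    have : Fact (ringChar F).Prime := ⟨hn⟩
    exact (H382.FieldAction.card_ringAut_dvd F (p := ringChar F) (d := n) (by rw [Nat.card_eq_fintype_card, hn'])).2
  obtain ⟨a, ha⟩ := hk.exists_generator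
  have hr : IsCyclic ↥(tau e H hH').range := inferInstance
  obtain ⟨⟨b', b, hb'⟩, hb⟩ := hr.exists_generator
  refine ⟨(a : ↥H), (a : ↥H).2, b, b.2, ?_, ⟨mulr e H hH' a, fun v => ker_apply a v⟩, ?_⟩
  · apply le_antisymm
    · rw [closure_le]
      rintro x (rfl | hx)
      · exact (a : ↥H).2
      · rw [Set.mem_singleton_iff] at hx
        subst hx
        exact b.2
    · intro h hh
      obtain ⟨n, hn⟩ := hb ⟨tau e H hH' ⟨h, hh⟩, ⟨h, hh⟩, rfl⟩
      have hn' : (tau e H hH' b) ^ n = tau e H hH' ⟨h, hh⟩ := by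
        have := congrArg Subtype.val hn
        rw [hb']
        simpa using this
      have h1 : (⟨h, hh⟩ : ↥H) * b ^ (-n) ∈ (tau e H hH').ker := by
        rw [MonoidHom.mem_ker, map_mul, map_zpow, zpow_neg, hn', mul_inv_cancel]
      obtain ⟨m, hm⟩ := ha ⟨_, h1⟩
      have h2 : (a : ↥H) ^ m = (⟨h, hh⟩ : ↥H) * b ^ (-n) := by
        have := congrArg Subtype.val hm
        simpa using this
      have h3 : h = ((a : ↥H) : Equiv.Perm V) ^ m * (b : Equiv.Perm V) ^ n := by
        have h4 : (⟨h, hh⟩ : ↥H) = (a : ↥H) ^ m * b ^ n := by rw [h2, zpow_neg]; group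
        have := congrArg Subtype.val h4
        simpa using this
      rw [h3]
      exact mul_mem (zpow_mem (subset_closure (by simp)) _) (zpow_mem (subset_closure (by simp)) _)
  · rintro h hh ⟨c, hc⟩
    have h1 : (⟨h, hh⟩ : ↥H) ∈ (tau e H hH').ker := by
      rw [MonoidHom.mem_ker]
      exact Semi.unique (tau_spec e H hH' ⟨h, hh⟩) ⟨c, fun v => by rw [hc]; rfl⟩
    obtain ⟨m, hm⟩ := ha ⟨_, h1⟩
    refine ⟨m, ?_⟩
    have h2 := congrArg Subtype.val (congrArg Subtype.val hm)
    simpa using h2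

end Cfsg.Agent.H500.Gen
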