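import Mathlib
import Cfsg.Agent.H891.Gen.Defs
import Cfsg.Agent.H500.Gen.Struct

/-!
# `AffRows.one` and the 2-homogeneous groups which are not 2-transitive (helper500, TEAM GEN piece B)

* `one` : the field `one` of `H891.Gen.AffRows`;
* `twoGen_affine` : a group of semiaffine permutations of a finite field containing all translations, such that the
  stabiliser of `0` is transitive on the non-zero elements up to sign, is generated by two elements;
-/

set_option autoImplicit false

namespace Cfsg.Agent.H500.Gen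

open Subgroup Cfsg.Agent.H891.Gen Cfsg.Agent.H440.TwoGen

section Aux

variable {V F : Type*} [AddCommGroup V] [Field F]

/-- homotheties are closed under conjugation by semilinear maps -/
theorem conj_homothety {e : V ≃+ F} {a b : Equiv.Perm V} {c d : F} {σ : F ≃+* F} (ha : ∀ v, e (a v) = c * e v)
    (hb : ∀ v, e (b v) = d * σ (e v)) : ∀ v, e ((b * a * b⁻¹) v) = σ c * e v := by
  intro v
  have hd : d ≠ 0 := Semi.ne_zero hb
  have h1 : e (b (b⁻¹ v)) = d * σ (e (b⁻¹ v)) := hb _
  have h2 : b (b⁻¹ v) = v := by simp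
  rw [h2] at h1
  rw [Equiv.Perm.mul_apply, Equiv.Perm.mul_apply, hb, ha, map_mul, h1]
  ring

end Aux

/-- **`AffRows.one`** -/
theorem one : ∀ (V : Type*) [AddCommGroup V] (p : ℕ) (H : Subgroup (Equiv.Perm V)), Lin p H →
    ∀ (F : Type) [Field F] (e : V ≃+ F), (∀ h ∈ H, ∃ (c : F) (σ : F ≃+* F), ∀ v : V, e (h v) = c * σ (e v)) →
      AffGood H := by
  intro V _ p H hL F _ e hH
  have : Finite V := hL.fin
  have : Finite F := Finite.of_equiv V e.toEquiv
  obtain ⟨a, ha, b, hb, hcl, ⟨c, hc⟩, hz⟩ := struct e H hH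
  obtain ⟨w, hw⟩ := hL.ne
  by_cases h1 : a = 1
  · refine ⟨a, b, hcl, w, 0, ?_⟩
    rintro ⟨z, hz, hza, hzb⟩
    have h2 := hz 1 (one_mem H) 1 (one_mem H)
    rw [mul_one, Equiv.Perm.one_apply] at h2
    rw [h1] at hza
    rw [hza] at h2
    exact hw (by simpa using h2)
  · refine ⟨a, b, hcl, 0, w, ?_⟩
    rintro ⟨z, hzd, hza, hzb⟩
    obtain ⟨d, σ, hd⟩ := hH b hb
    have h2 := conj_homothety hc hd
    have h3 : b * a * b⁻¹ ∈ H := mul_mem (mul_mem hb ha) (inv_mem hb)
    have h4 := hz _ h3 ⟨_, h2⟩
    have h0 : ∀ h ∈ H, h 0 = 0 := by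
      intro h hh
      have := hL.add h hh 0 0
      rw [add_zero] at this
      simpa using this
    have hz1 : z 1 = 0 := by
      have h5 := hzd 1 (one_mem H) 1 (one_mem H)
      rw [mul_one, Equiv.Perm.one_apply] at h5
      simpa using h5
    have h5 : ∀ x ∈ closure ({a} : Set (Equiv.Perm V)), x ∈ H ∧ z x = 0 := by
      intro x hx
      induction hx using closure_induction with
      | mem y hy =>
        rw [Set.mem_singleton_iff] at hy
        subst hy
        exact ⟨ha, hza⟩
      | one => exact ⟨one_mem H, hz1⟩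
      | mul x y _ _ ihx ihy =>
        refine ⟨mul_mem ihx.1 ihy.1, ?_⟩
        rw [hzd x ihx.1 y ihy.1, ihx.2, ihy.2, h0 x ihx.1, add_zero]
      | inv x _ ihx =>
        refine ⟨inv_mem ihx.1, ?_⟩
        have h6 := hzd x⁻¹ (inv_mem ihx.1) x ihx.1
        rw [inv_mul_cancel, hz1, ihx.2, h0 _ (inv_mem ihx.1), add_zero] at h6
        exact h6.symm
    have h6 : z (b * a * b⁻¹) = 0 := (h5 _ (by rwa [← zpowers_eq_closure])).2
    have h7 := hzd _ h3 b hb
    rw [inv_mul_cancel_right, hzd b hb a ha, hza, h0 b hb, add_zero, h6, zero_add] at h7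
    -- `z b` is fixed by the homothety `b a b⁻¹ ≠ 1`
    have h8 : e (z b) = σ c * e (z b) := by
      have := congrArg e h7
      rwa [h2] at this
    have h9 : σ c = 1 := by
      have h10 : e (z b) ≠ 0 := by
        rw [hzb]
        intro h
        exact hw (e.injective (by rw [h, map_zero]))
      have h11 : (σ c - 1) * e (z b) = 0 := by rw [sub_mul, one_mul, ← h8, sub_self]
      rcases mul_eq_zero.1 h11 with h12 | h12
      · exact sub_eq_zero.1 h12
      · exact absurd h12 h10
    have h10 : c = 1 := σ.injective (by rw [h9, map_one])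
    apply h1
    ext v
    apply e.injective
    rw [hc, h10, one_mul, Equiv.Perm.one_apply]

end Cfsg.Agent.H500.Gen
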