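import Mathlib
import Cfsg.Agent.H891.Gen.LinRows
import Cfsg.Agent.H500.Gen.One

/-!
# `LinRows.semi` (helper500, TEAM GEN piece B)

* `small_of_pair` : if `a`, `b` generate the group and some pair `(v, w)` is not the pair of values of a derivation at
  `a`, `b` then `Small`;
* `lgood_of_affGood` : `AffGood` of the permutation group gives `LGood`;
* `lrSemi` : the field `semi` of `H891.Gen.LinRows`.
-/

set_option autoImplicit false

namespace Cfsg.Agent.H500.Gen

open Subgroup Cfsg.Agent.H891.Gen Cfsg.Agent.H440.TwoGen Cfsg.Agent.H50.Her Module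

universe u

section Pair

variable {H V : Type*} [Group H] [AddCommGroup V] [DistribMulAction H V]

theorem der_one {z : H → V} (hz : ∀ g h : H, z (g * h) = z g + g • z h) : z 1 = 0 := by
  have h := hz 1 1
  rw [mul_one, one_smul] at h
  exact add_eq_left.1 h.symm

theorem der_inv {z : H → V} (hz : ∀ g h : H, z (g * h) = z g + g • z h) (g : H) : z g⁻¹ = - (g⁻¹ • z g) := by
  have h := hz g⁻¹ g
  rw [inv_mul_cancel, der_one hz] at h
  exact eq_neg_of_add_eq_zero_left h.symm

/-- a derivation is determined by its values on generators -/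
theorem der_ext {S : Set H} (hS : closure S = ⊤) {z z' : H → V} (hz : ∀ g h : H, z (g * h) = z g + g • z h)
    (hz' : ∀ g h : H, z' (g * h) = z' g + g • z' h) (h : ∀ s ∈ S, z s = z' s) : z = z' := by
  funext g
  have hg : g ∈ closure S := hS ▸ mem_top g
  induction hg using Subgroup.closure_induction with
  | mem x hx => exact h x hx
  | one => rw [der_one hz, der_one hz']
  | mul x y _ _ ihx ihy => rw [hz, hz', ihx, ihy]
  | inv x _ ihx => rw [der_inv hz, der_inv hz', ihx]

theorem small_of_pair [Finite V] {a b : H} (hcl : closure ({a, b} : Set H) = ⊤) (v w : V)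
    (h : ∀ z : H → V, (∀ g h : H, z (g * h) = z g + g • z h) → z a = v → z b = w → False) : Small H V := by
  let f : {z : H → V // ∀ g h : H, z (g * h) = z g + g • z h} → V × V := fun z => (z.1 a, z.1 b)
  have hinj : Function.Injective f := by
    intro z z' hzz
    have h1 : z.1 a = z'.1 a := congrArg Prod.fst hzz
    have h2 : z.1 b = z'.1 b := congrArg Prod.snd hzz
    apply Subtype.ext
    apply der_ext hcl z.2 z'.2
    rintro s (rfl | hs)
    · exact h1
    · rw [Set.mem_singleton_iff] at hs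
      subst hs
      exact h2
  have hns : ¬ Function.Surjective f := by
    intro hs
    obtain ⟨z, hz⟩ := hs (v, w)
    exact h z.1 z.2 (congrArg Prod.fst hz) (congrArg Prod.snd hz)
  have : Finite {z : H → V // ∀ g h : H, z (g * h) = z g + g • z h} := Finite.of_injective f hinj
  have h3 : Nat.card {z : H → V // ∀ g h : H, z (g * h) = z g + g • z h} < Nat.card (V × V) := by
    refine lt_of_le_of_ne (Nat.card_le_card_of_injective f hinj) ?_
    intro h4
    exact hns ((Nat.bijective_iff_injective_and_card f).2 ⟨hinj, h4⟩).2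
  rw [Nat.card_prod, ← pow_two] at h3
  exact h3

end Pair

section Lin

variable {p : ℕ} [hp : Fact p.Prime] {V : Type u} [AddCommGroup V] [Module (ZMod p) V]

/-- linear automorphisms as permutations -/
def permHom : (V ≃ₗ[ZMod p] V) →* Equiv.Perm V where
  toFun g := g.toEquiv
  map_one' := rfl
  map_mul' _ _ := rfl

@[simp] theorem permHom_apply (g : V ≃ₗ[ZMod p] V) (v : V) : permHom g v = g v := rfl

theorem permHom_injective : Function.Injective (permHom : (V ≃ₗ[ZMod p] V) →* Equiv.Perm V) := by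
  intro g h hgh
  ext v
  exact congrArg (fun k : Equiv.Perm V => k v) hgh

theorem lgood_of_affGood [Finite V] {G : Subgroup (V ≃ₗ[ZMod p] V)} (h : AffGood (G.map permHom)) : LGood G := by
  obtain ⟨a', b', hcl, v, w, hvw⟩ := h
  have ha' : a' ∈ G.map permHom := hcl ▸ subset_closure (by simp)
  have hb' : b' ∈ G.map permHom := hcl ▸ subset_closure (by simp)
  obtain ⟨a, ha, rfl⟩ := ha'
  obtain ⟨b, hb, rfl⟩ := hb'
  have hcl' : closure ({⟨a, ha⟩, ⟨b, hb⟩} : Set ↥G) = ⊤ := by
    apply Subgroup.map_injective (f := (permHom : (V ≃ₗ[ZMod p] V) →* Equiv.Perm V).comp G.subtype)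
    · intro x y hxy
      exact Subtype.ext (permHom_injective hxy)
    · rw [MonoidHom.map_closure, Set.image_pair, ← Subgroup.map_map, ← MonoidHom.range_eq_map, Subgroup.range_subtype]
      exact hcl
  refine ⟨⟨_, _, hcl'⟩, small_of_pair hcl' v w ?_⟩
  intro z hz hza hzb
  classical
  apply hvw
  -- extend `z`
  have hpre : ∀ g : Equiv.Perm V, g ∈ G.map permHom → ∃ x : ↥G, permHom (x : V ≃ₗ[ZMod p] V) = g := by
    rintro _ ⟨x, hx, rfl⟩
    exact ⟨⟨x, hx⟩, rfl⟩
  choose! r hr using hpre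
  have hr' : ∀ x : ↥G, r (permHom (x : V ≃ₗ[ZMod p] V)) = x := by
    intro x
    apply Subtype.ext
    exact permHom_injective (hr _ ⟨x, x.2, rfl⟩)
  refine ⟨fun g => z (r g), ?_, ?_, ?_⟩
  · rintro _ ⟨g, hg, rfl⟩ _ ⟨k, hk, rfl⟩
    have h1 := hr' ⟨g, hg⟩
    have h2 := hr' ⟨k, hk⟩
    have h3 := hr' (⟨g, hg⟩ * ⟨k, hk⟩)
    change z (r (permHom g * permHom k)) = z (r (permHom g)) + permHom g (z (r (permHom k)))
    rw [← map_mul]
    have h4 : r (permHom (g * k)) = ⟨g, hg⟩ * ⟨k, hk⟩ := h3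
    have h5 : r (permHom g) = ⟨g, hg⟩ := h1
    have h6 : r (permHom k) = ⟨k, hk⟩ := h2
    rw [h4, h5, h6, hz]
    rfl
  · change z (r (permHom a)) = v
    have h1 : r (permHom a) = ⟨a, ha⟩ := hr' ⟨a, ha⟩
    rw [h1, hza]
  · change z (r (permHom b)) = w
    have h1 : r (permHom b) = ⟨b, hb⟩ := hr' ⟨b, hb⟩
    rw [h1, hzb]

end Lin

/-- **`LinRows.semi`** -/
theorem lrSemi : ∀ (p : ℕ) [Fact p.Prime] (V : Type u) [AddCommGroup V] [Module (ZMod p) V] [Finite V] [Nontrivial V]
    (G : Subgroup (V ≃ₗ[ZMod p] V)), (∀ v w : V, v ≠ 0 → w ≠ 0 → ∃ g ∈ G, g v = w) → SemiOut p V G → LGood G := by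
  intro p hp V _ _ _ _ G htr hS
  obtain ⟨F, _, _, e, h⟩ := hS
  apply lgood_of_affGood
  refine one V p (G.map permHom) ⟨inferInstance, hp.out, ?_, ?_, ?_, ?_⟩ F e ?_
  · rintro _ ⟨g, hg, rfl⟩ v w
    exact map_add g v w
  · intro v
    have h1 : ((p : ZMod p) • v) = 0 := by
      rw [ZMod.natCast_self, zero_smul]
    rwa [Nat.cast_smul_eq_nsmul] at h1
  · exact exists_ne 0
  · intro v w hv hw
    obtain ⟨g, hg, hgv⟩ := htr v w hv hw
    exact ⟨permHom g, ⟨g, hg, rfl⟩, hgv⟩
  · rintro _ ⟨g, hg, rfl⟩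
    exact h g hg

end Cfsg.Agent.H500.Gen
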