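import Mathlib
import Cfsg.Agent.H891.Gen.Defs
import Cfsg.Agent.H487.Gen.Outer
import Cfsg.Agent.S0814
import Cfsg.Agent.S2411

/-!
# `ASRows.sp` (helper500, TEAM GEN piece O)

`Out(PSp_{2m}(2)) = 1` for `m ≥ 3` (S0814), so `G = T`, which is 2-generated (S2411).
-/

set_option autoImplicit false

namespace Cfsg.Agent.H500.Gen

open Subgroup Cfsg.Agent.H891.Gen Cfsg.Agent.H440.TwoGen Cfsg.Agent.H384.TwoTrans

universe u v

/-- **`ASRows.sp`** -/
theorem asSp : ∀ (G : Type u) (Ω : Type v) [Group G] [MulAction G Ω] (T : Subgroup G), AS G Ω T →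
    ∀ (F : Type) [Field F] [Fintype F] (m : ℕ), Fintype.card F = 2 → 3 ≤ m → Nonempty (↥T ≃* Cfsg.PSp m F) →
      TwoGen G := by
  intro G Ω _ _ T A F _ _ m hF hm ⟨e⟩
  have h2 : Fact (Nat.Prime 2) := ⟨Nat.prime_two⟩
  have hfin := A.finG
  have hfinT : Finite T := inferInstance
  have hfinM : Finite (Cfsg.PSp m F) := Finite.of_equiv T e.toEquiv
  have hs := A.simple
  have hc := S0814.result (F := F) 2 1 le_rfl (by rw [hF]; norm_num) m (by omega) (by omega)
  rw [if_neg (by omega)] at hc
  have hc' : Nat.card (MulAut (Cfsg.PSp m F)) = Nat.card (Cfsg.PSp m F) := by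
    rw [hc]
    norm_num
  have hinj : Function.Injective (MulAut.conj : Cfsg.PSp m F →* MulAut (Cfsg.PSp m F)) := by
    rw [injective_iff_map_eq_one]
    intro a ha
    obtain ⟨t, rfl⟩ := e.surjective a
    have h1 : ∀ s : T, t * s = s * t := by
      intro s
      have h3 := congrArg (fun f : MulAut (Cfsg.PSp m F) => f (e s)) ha
      have h4 : e t * e s * (e t)⁻¹ = e s := h3
      apply e.injective
      rw [map_mul, map_mul]
      calc e t * e s = e t * e s * (e t)⁻¹ * e t := by group
        _ = e s * e t := by rw [h4]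
    have h5 : (t : G) ∈ centralizer (T : Set G) := by
      rw [mem_centralizer_iff]
      intro s hs
      exact (congrArg Subtype.val (h1 ⟨s, hs⟩)).symm
    rw [A.cent, mem_bot] at h5
    have h6 : t = 1 := Subtype.ext h5
    rw [h6, map_one]
  have hsurj := ((Nat.bijective_iff_injective_and_card _).2 ⟨hinj, hc'.symm⟩).2
  exact Cfsg.Agent.H487.Gen.twoGen_of_inner A.normal A.cent e (fun φ => hsurj φ) (S2411.result m (by omega) (by omega))

end Cfsg.Agent.H500.Gen
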