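import Mathlib
import Cfsg.Agent.H500.Gen.One
import Cfsg.Agent.S0737

/-!
# The 2-homogeneous groups which are not 2-transitive (helper500, TEAM GEN piece B)

* `twoGen_affine` : a group of semiaffine permutations of a finite field containing all translations, such that the
  stabiliser of `0` is transitive on the non-zero elements up to sign, is generated by two elements;
* `notTwo` : the row `H487.Gen.NotTwo` (2-homogeneous, not 2-transitive groups are 2-generated).
-/

set_option autoImplicit false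

namespace Cfsg.Agent.H500.Gen

open Subgroup Cfsg.Agent.H891.Gen Cfsg.Agent.H440.TwoGen
open scoped Pointwise

universe u

theorem twoGen_of_closure {G : Type*} [Group G] {H : Subgroup G} {x y : G} (h : closure ({x, y} : Set G) = H) :
    TwoGen ↥H := by
  have hx : x ∈ H := h ▸ subset_closure (by simp)
  have hy : y ∈ H := h ▸ subset_closure (by simp)
  refine ⟨⟨x, hx⟩, ⟨y, hy⟩, ?_⟩
  apply Subgroup.map_injective H.subtype_injective
  rw [MonoidHom.map_closure, Set.image_pair, ← MonoidHom.range_eq_map, Subgroup.range_subtype]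
  exact h

section Affine

variable {F : Type*} [Field F]

/-- translation -/
def tr (b : F) : Equiv.Perm F := Equiv.addRight b

@[simp] theorem tr_apply (b x : F) : tr b x = x + b := rfl

theorem tr_inv_apply (b x : F) : (tr b)⁻¹ x = x - b := by
  apply (tr b).injective
  have : tr b ((tr b)⁻¹ x) = x := by simp
  rw [this, tr_apply]
  ring

theorem tr_neg (b : F) : tr (-b) = (tr b)⁻¹ := by
  ext x
  rw [tr_apply, tr_inv_apply]
  ring

/-- the elements of `G` fixing `0` -/
def stab0 (G : Subgroup (Equiv.Perm F)) : Subgroup (Equiv.Perm F) where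
  carrier := {g | g ∈ G ∧ g 0 = 0}
  one_mem' := ⟨one_mem G, rfl⟩
  mul_mem' := by
    rintro g h ⟨hg, hg0⟩ ⟨hh, hh0⟩
    exact ⟨mul_mem hg hh, by rw [Equiv.Perm.mul_apply, hh0, hg0]⟩
  inv_mem' := by
    rintro g ⟨hg, hg0⟩
    refine ⟨inv_mem hg, ?_⟩
    apply g.injective
    have : g (g⁻¹ 0) = 0 := by simp
    rw [this, hg0]

/-- A group of semiaffine permutations of a finite field containing all translations, such that the stabiliser of `0`
is transitive on the non-zero elements up to sign, is 2-generated. -/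
theorem twoGen_affine [Finite F] (G : Subgroup (Equiv.Perm F))
    (hG : ∀ g ∈ G, ∃ (c : F) (σ : F ≃+* F) (b : F), ∀ x, g x = c * σ x + b) (hT : ∀ b, tr b ∈ G)
    (hH : ∀ d : F, d ≠ 0 → ∃ h ∈ G, h 0 = 0 ∧ (h 1 = d ∨ h 1 = -d)) : TwoGen ↥G := by
  have hsemi : ∀ h ∈ stab0 G, ∃ (c : F) (σ : F ≃+* F), ∀ v, (AddEquiv.refl F) (h v) = c * σ ((AddEquiv.refl F) v) := by
    rintro h ⟨hh, hh0⟩
    obtain ⟨c, σ, b, hb⟩ := hG h hh
    have h1 := hb 0
    rw [hh0, map_zero, mul_zero, zero_add] at h1
    refine ⟨c, σ, fun v => ?_⟩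
    change h v = c * σ v
    rw [hb, ← h1, add_zero]
  -- elements of `H` are additive
  have hadd : ∀ h ∈ stab0 G, ∀ x y, h (x + y) = h x + h y := by
    intro h hh x y
    obtain ⟨c, σ, hc⟩ := hsemi h hh
    have hc' : ∀ v, h v = c * σ v := hc
    rw [hc', hc', hc', map_add]
    ring
  have hneg : ∀ h ∈ stab0 G, ∀ x, h (-x) = - h x := by
    intro h hh x
    have h1 := hadd h hh x (-x)
    rw [add_neg_cancel, hh.2] at h1
    exact (neg_eq_of_add_eq_zero_right h1.symm).symm
  obtain ⟨a, ha, b, hb, hcl, ⟨c, hc⟩, hz⟩ := struct (AddEquiv.refl F) (stab0 G) hsemi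
  have hc' : ∀ v, a v = c * v := hc
  -- the criterion
  have key : ∀ K : Subgroup (Equiv.Perm F), K ≤ G → (∃ k ∈ K, ∃ e, ∀ y, k y = a y + e) →
      (∃ k ∈ K, ∃ e, ∀ y, k y = b y + e) → (∃ d, d ≠ 0 ∧ tr d ∈ K) → K = G := by
    rintro K hKG hka hkb ⟨d, hd, hdK⟩
    have hcov : ∀ x ∈ closure ({a, b} : Set (Equiv.Perm F)), x ∈ stab0 G ∧ ∃ k ∈ K, ∃ e, ∀ y, k y = x y + e := by
      intro x hx
      induction hx using closure_induction with
      | mem y hy =>
        rcases hy with rfl | hy
        · exact ⟨ha, hka⟩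
        · rw [Set.mem_singleton_iff] at hy
          subst hy
          exact ⟨hb, hkb⟩
      | one => exact ⟨one_mem _, 1, one_mem _, 0, fun y => by simp⟩
      | mul x y _ _ ihx ihy =>
        obtain ⟨hx, k, hk, e, hke⟩ := ihx
        obtain ⟨hy, l, hl, f, hlf⟩ := ihy
        refine ⟨mul_mem hx hy, k * l, mul_mem hk hl, x f + e, fun z => ?_⟩
        rw [Equiv.Perm.mul_apply, Equiv.Perm.mul_apply, hlf, hke, hadd x hx]
        ring
      | inv x _ ihx =>
        obtain ⟨hx, k, hk, e, hke⟩ := ihx
        refine ⟨inv_mem hx, k⁻¹, inv_mem hk, -(x⁻¹ e), fun z => ?_⟩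
        apply k.injective
        have h1 : k (k⁻¹ z) = z := by simp
        have h2 : x (x⁻¹ z) = z := by simp
        have h3 : x (x⁻¹ e) = e := by simp
        rw [h1, hke, hadd x hx, hneg x hx, h2, h3]
        ring
    rw [hcl] at hcov
    have hTK : ∀ y, tr y ∈ K := by
      intro y
      by_cases hy : y = 0
      · subst hy
        have : tr (0 : F) = 1 := by ext x; simp
        rw [this]
        exact one_mem K
      obtain ⟨h, hh, hh0, h1⟩ := hH y hy
      obtain ⟨h', hh', hh'0, h1'⟩ := hH d hd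
      have hm : h ∈ stab0 G := ⟨hh, hh0⟩
      have hm' : h' ∈ stab0 G := ⟨hh', hh'0⟩
      have hm'' : h * h'⁻¹ ∈ stab0 G := mul_mem hm (inv_mem hm')
      have h2 : (h * h'⁻¹) d = y ∨ (h * h'⁻¹) d = -y := by
        have h3 : h'⁻¹ d = 1 ∨ h'⁻¹ d = -1 := by
          rcases h1' with h1' | h1'
          · left
            apply h'.injective
            rw [h1']
            simp
          · right
            apply h'.injective
            rw [hneg h' hm', h1', neg_neg]
            simp
        rw [Equiv.Perm.mul_apply]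
        rcases h3 with h3 | h3
        · rw [h3]
          exact h1
        · rw [h3, hneg h hm]
          rcases h1 with h1 | h1
          · right; rw [h1]
          · left; rw [h1, neg_neg]
      obtain ⟨-, k, hk, e, hke⟩ := hcov _ hm''
      have h4 : k * tr d * k⁻¹ = tr ((h * h'⁻¹) d) := by
        ext x
        have h5 : k (k⁻¹ x) = x := by simp
        rw [hke] at h5
        rw [Equiv.Perm.mul_apply, Equiv.Perm.mul_apply, tr_apply, tr_apply, hke, hadd _ hm'']
        linear_combination h5
      have h6 : tr ((h * h'⁻¹) d) ∈ K := h4 ▸ mul_mem (mul_mem hk hdK) (inv_mem hk)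
      rcases h2 with h2 | h2
      · rwa [h2] at h6
      · rw [h2, tr_neg] at h6
        exact inv_mem_iff.1 h6
    apply le_antisymm hKG
    intro g hg
    have h1 : (tr (g 0))⁻¹ * g ∈ stab0 G := by
      refine ⟨mul_mem (inv_mem (hT _)) hg, ?_⟩
      rw [Equiv.Perm.mul_apply, tr_inv_apply, sub_self]
    obtain ⟨-, k, hk, e, hke⟩ := hcov _ h1
    have h2 : g = tr (g 0) * ((tr e)⁻¹ * k) := by
      ext x
      rw [Equiv.Perm.mul_apply, Equiv.Perm.mul_apply, tr_apply, tr_inv_apply, hke, Equiv.Perm.mul_apply, tr_inv_apply]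
      ring
    rw [h2]
    exact mul_mem (hTK _) (mul_mem (inv_mem (hTK _)) hk)
  by_cases h1 : a = 1
  · apply twoGen_of_closure (x := tr 1) (y := b)
    apply key
    · rw [closure_le]
      rintro x (rfl | hx)
      · exact hT 1
      · rw [Set.mem_singleton_iff] at hx
        subst hx
        exact hb.1
    · exact ⟨1, one_mem _, 0, fun y => by rw [h1]; simp⟩
    · exact ⟨b, subset_closure (by simp), 0, fun y => by simp⟩
    · exact ⟨1, one_ne_zero, subset_closure (by simp)⟩
  · apply twoGen_of_closure (x := a) (y := tr 1 * b)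
    have haK : a ∈ closure ({a, tr 1 * b} : Set (Equiv.Perm F)) := subset_closure (by simp)
    have hbK : tr 1 * b ∈ closure ({a, tr 1 * b} : Set (Equiv.Perm F)) := subset_closure (by simp)
    apply key
    · rw [closure_le]
      rintro x (rfl | hx)
      · exact ha.1
      · rw [Set.mem_singleton_iff] at hx
        subst hx
        exact mul_mem (hT 1) hb.1
    · exact ⟨a, haK, 0, fun y => by simp⟩
    · exact ⟨_, hbK, 1, fun y => by simp⟩
    · obtain ⟨d, σ, hd⟩ := hsemi b hb
      have h2 := conj_homothety hc hd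
      have h2' : ∀ v, (b * a * b⁻¹) v = σ c * v := h2
      have h3 : b * a * b⁻¹ ∈ stab0 G := mul_mem (mul_mem hb ha) (inv_mem hb)
      have h4 : b * a * b⁻¹ ∈ closure ({a, tr 1 * b} : Set (Equiv.Perm F)) :=
        (zpowers_le.2 haK) (hz _ h3 ⟨_, h2⟩)
      refine ⟨1 - σ c, ?_, ?_⟩
      · intro h
        apply h1
        have h5 : σ c = σ 1 := by rw [map_one]; linear_combination -h
        have h6 := σ.injective h5
        ext v
        rw [hc', h6, one_mul, Equiv.Perm.one_apply]
      · have h5 : tr (1 - σ c) = (tr 1 * b) * a * (tr 1 * b)⁻¹ * (b * a * b⁻¹)⁻¹ := by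
          rw [eq_mul_inv_iff_mul_eq]
          ext x
          have h6 : (tr (1 : F) * b * a * (tr (1 : F) * b)⁻¹ : Equiv.Perm F) x =
              (tr (1 : F)) ((b * a * b⁻¹) ((tr (1 : F))⁻¹ x)) := by
            rw [mul_inv_rev]
            simp only [Equiv.Perm.mul_apply]
          rw [h6, h2', Equiv.Perm.mul_apply, h2', tr_apply, tr_apply, tr_inv_apply]
          ring
        rw [h5]
        exact mul_mem (mul_mem (mul_mem hbK haK) (inv_mem hbK)) (inv_mem h4)

end Affine

/-- **Row `NotTwo`**: 2-homogeneous groups which are not 2-transitive are 2-generated. -/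
theorem notTwo (α : Type u) [Fintype α] [DecidableEq α] (G : Subgroup (Equiv.Perm α)) (hne : G ≠ ⊥)
    (h2 : MulAction.IsPretransitive G (Set.powersetCard α 2)) (hn2 : ¬ MulAction.IsMultiplyPretransitive G α 2) :
    TwoGen ↥G := by
  obtain ⟨-, p, f, hp, hp2, hcard, h34, e, he, hT⟩ := S0737.result G hne h2 hn2
  have hf : f ≠ 0 := by
    rintro rfl
    norm_num at h34
  have : Finite (GaloisField p f) := Finite.of_equiv α e
  -- transport to the field
  let φ : Equiv.Perm α ≃* Equiv.Perm (GaloisField p f) := e.permCongrHom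
  have hφ : ∀ (g : Equiv.Perm α) (x : GaloisField p f), φ g x = e (g (e.symm x)) := fun g x => rfl
  let G' : Subgroup (Equiv.Perm (GaloisField p f)) := G.map φ.toMonoidHom
  have hequiv : ↥G ≃* ↥G' := φ.subgroupMap G
  refine TwoGen.of_equiv hequiv.symm (twoGen_affine G' ?_ ?_ ?_)
  · rintro _ ⟨g, hg, rfl⟩
    obtain ⟨c, b, σ, h⟩ := he ⟨g, hg⟩
    refine ⟨c, σ, b, fun x => ?_⟩
    exact h x
  · intro b
    obtain ⟨g, hg⟩ := hT b
    refine ⟨g, g.2, ?_⟩
    ext x
    change e ((g : Equiv.Perm α) (e.symm x)) = x + b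
    rw [hg, e.apply_symm_apply]
  · intro d hd
    have h01 : e.symm 0 ≠ e.symm 1 := fun h => zero_ne_one (e.symm.injective h)
    have h0d : e.symm 0 ≠ e.symm d := fun h => hd (e.symm.injective h).symm
    obtain ⟨g, hg⟩ := h2.exists_smul_eq (⟨{e.symm 0, e.symm 1}, by
      rw [Set.powersetCard.mem_iff, Finset.card_pair h01]⟩ : Set.powersetCard α 2)
      (⟨{e.symm 0, e.symm d}, by rw [Set.powersetCard.mem_iff, Finset.card_pair h0d]⟩ : Set.powersetCard α 2)
    have hg' : ∀ x ∈ ({e.symm 0, e.symm 1} : Finset α), (g : Equiv.Perm α) x ∈ ({e.symm 0, e.symm d} : Finset α) := by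
      intro x hx
      have h3 : g • ({e.symm 0, e.symm 1} : Finset α) = {e.symm 0, e.symm d} := congrArg Subtype.val hg
      rw [← h3]
      exact Finset.mem_smul_finset.2 ⟨x, hx, rfl⟩
    have hg0 := hg' (e.symm 0) (by simp)
    have hg1 := hg' (e.symm 1) (by simp)
    rw [Finset.mem_insert, Finset.mem_singleton] at hg0 hg1
    rcases hg0 with hg0 | hg0
    · refine ⟨φ g, ⟨g, g.2, rfl⟩, ?_, Or.inl ?_⟩
      · rw [hφ, hg0, e.apply_symm_apply]
      · rcases hg1 with hg1 | hg1
        · exact absurd ((g : Equiv.Perm α).injective (hg0.trans hg1.symm)) h01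
        · rw [hφ, hg1, e.apply_symm_apply]
    · obtain ⟨t, ht⟩ := hT (-d)
      have htd : ∀ x, φ t x = x + -d := fun x => by rw [hφ, ht, e.apply_symm_apply]
      refine ⟨φ t * φ g, ⟨t * g, mul_mem t.2 g.2, map_mul φ _ _⟩, ?_, Or.inr ?_⟩
      · rw [Equiv.Perm.mul_apply, htd, hφ, hg0, e.apply_symm_apply, add_neg_cancel]
      · rcases hg1 with hg1 | hg1
        · rw [Equiv.Perm.mul_apply, htd, hφ, hg1, e.apply_symm_apply, zero_add]
        · exact absurd ((g : Equiv.Perm α).injective (hg0.trans hg1.symm)) h01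

end Cfsg.Agent.H500.Gen
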